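import Mathlib.AlgebraicGeometry.AffineSpace
import Mathlib.AlgebraicGeometry.Morphisms.Finite
import Mathlib.AlgebraicGeometry.Morphisms.FiniteType
import Mathlib.AlgebraicGeometry.Fiber
import Mathlib.Topology.KrullDimension
import Groth.Agent.Flat2D.NoetherRel

/-!
Noether normalization of a fibre of an affine morphism of finite type: scheme glue.
-/

set_option autoImplicit false
universe u

namespace Groth.Agent.Ega4fib.H115.NoetherFibre

open CategoryTheory AlgebraicGeometry Limits AlgebraicGeometry.AffineSpace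

/-- If the base change of `(f, v) : X ⟶ 𝔸(n; Y)` to `𝔸(n; S)` is finite then so is its base change to the fibre
of `𝔸(n; Y)` over any point `y` whose residue field point factors through `S`. -/
theorem isFinite_snd {X Y S X' : Scheme.{u}} (n : Type u) (f : X ⟶ Y) (v : n → Γ(X, ⊤))
    (s : S ⟶ Y) (a : X' ⟶ X) (b : X' ⟶ S) (h : IsPullback a b f s)
    (hfin : IsFinite (homOfVector b (a.appTop ∘ v))) (y : Y)
    (r : Spec (Y.residueField y) ⟶ S) (hr : r ≫ s = Y.fromSpecResidueField y) :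
    IsFinite (pullback.snd (homOfVector f v) ((𝔸(n; Y) ↘ Y).fiberι y)) := by
  have h1 : IsPullback a (homOfVector b (a.appTop ∘ v)) (homOfVector f v) (AffineSpace.map n s) := by
    refine IsPullback.of_bot (v₂₁ := (𝔸(n; S) ↘ S)) (v₂₂ := 𝔸(n; Y) ↘ Y) (h₃₁ := s) ?_ ?_
      (isPullback_map s)
    · simpa using h
    · refine AffineSpace.hom_ext ?_ fun i ↦ ?_
      · simp [h.w]
      · have e1 : (homOfVector f v).appTop (coord Y i) = v i := homOfVector_appTop_coord f v i
        have e2 : (homOfVector b (a.appTop ∘ v)).appTop (coord S i) = a.appTop (v i) :=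
          homOfVector_appTop_coord b (a.appTop ∘ v) i
        have e3 : (AffineSpace.map n s).appTop (coord Y i) = coord S i := map_appTop_coord s i
        rw [Scheme.Hom.comp_appTop, Scheme.Hom.comp_appTop, CommRingCat.comp_apply,
          CommRingCat.comp_apply, e1, e3, e2]
  let l := (isPullback_map (n := n) s).lift ((𝔸(n; Y) ↘ Y).fiberι y)
    ((𝔸(n; Y) ↘ Y).fiberToSpecResidueField y ≫ r)
    (by rw [Category.assoc, hr, Scheme.Hom.fiber_fac])
  have hl : l ≫ AffineSpace.map n s = (𝔸(n; Y) ↘ Y).fiberι y := (isPullback_map s).lift_fst _ _ _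
  have h2 := IsPullback.of_hasPullback (homOfVector f v) ((𝔸(n; Y) ↘ Y).fiberι y)
  let t := h1.lift (pullback.fst (homOfVector f v) ((𝔸(n; Y) ↘ Y).fiberι y))
    (pullback.snd (homOfVector f v) ((𝔸(n; Y) ↘ Y).fiberι y) ≫ l)
    (by rw [Category.assoc, hl, pullback.condition])
  have ht : t ≫ a = pullback.fst (homOfVector f v) ((𝔸(n; Y) ↘ Y).fiberι y) := h1.lift_fst _ _ _
  have ht2 : t ≫ homOfVector b (a.appTop ∘ v) =
      pullback.snd (homOfVector f v) ((𝔸(n; Y) ↘ Y).fiberι y) ≫ l := h1.lift_snd _ _ _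
  have h3 : IsPullback t (pullback.snd (homOfVector f v) ((𝔸(n; Y) ↘ Y).fiberι y))
      (homOfVector b (a.appTop ∘ v)) l := by
    refine IsPullback.of_right ?_ ht2 h1
    rw [ht, hl]
    exact h2
  exact MorphismProperty.of_isPullback h3 hfin

/-- The comparison between the point of `Y` and the residue field of the corresponding prime. -/
theorem exists_residue {Y : Scheme.{u}} [IsAffine Y] (y : Y) :
    ∃ r : Spec (Y.residueField y) ⟶ Spec (.of (Y.isoSpec.hom y).asIdeal.ResidueField), IsIso r ∧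
      r ≫ Spec.map (CommRingCat.ofHom (algebraMap Γ(Y, ⊤) (Y.isoSpec.hom y).asIdeal.ResidueField)) ≫
        Y.isoSpec.inv = Y.fromSpecResidueField y := by
  refine ⟨Spec.map (Y.isoSpec.hom.residueFieldMap y) ≫
    Spec.map (Scheme.Spec.residueFieldIso Γ(Y, ⊤) (Y.isoSpec.hom y)).inv, inferInstance, ?_⟩
  rw [Category.assoc, Scheme.Spec.map_residueFieldIso_inv_eq_fromSpecResidueField_assoc,
    Scheme.Hom.SpecMap_residueFieldMap_fromSpecResidueField_assoc, Iso.hom_inv_id, Category.comp_id]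

theorem exists_vector {X Y : Scheme.{u}} [IsAffine X] [IsAffine Y] (f : X ⟶ Y)
    [LocallyOfFiniteType f] (y : Y) (e : ℕ)
    (he : topologicalKrullDim ↥(f.fiber y) = e) :
    ∃ v : ULift.{u} (Fin e) → Γ(X, ⊤),
      IsFinite (pullback.snd (homOfVector f v) ((𝔸(ULift.{u} (Fin e); Y) ↘ Y).fiberι y)) := by
  let _ : Algebra Γ(Y, ⊤) Γ(X, ⊤) := f.appTop.hom.toAlgebra
  have hft : Algebra.FiniteType Γ(Y, ⊤) Γ(X, ⊤) := HasRingHomProperty.appTop (P := @LocallyOfFiniteType) f inferInstance
  let p : PrimeSpectrum Γ(Y, ⊤) := Y.isoSpec.hom y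
  obtain ⟨r, hrI, hr⟩ := exists_residue y
  have hpb : IsPullback
      (Spec.map (CommRingCat.ofHom (Algebra.TensorProduct.includeRight (R := Γ(Y, ⊤))
        (A := p.asIdeal.ResidueField) (B := Γ(X, ⊤))).toRingHom) ≫ X.isoSpec.inv)
      (Spec.map (CommRingCat.ofHom (Algebra.TensorProduct.includeLeftRingHom (R := Γ(Y, ⊤))
        (A := p.asIdeal.ResidueField) (B := Γ(X, ⊤))))) f
      (Spec.map (CommRingCat.ofHom (algebraMap Γ(Y, ⊤) p.asIdeal.ResidueField)) ≫
        Y.isoSpec.inv) := by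
    refine IsPullback.paste_horiz (isPullback_SpecMap_of_isPushout _ _ _ _
      (CommRingCat.isPushout_tensorProduct Γ(Y, ⊤) p.asIdeal.ResidueField Γ(X, ⊤))).flip ?_
    exact IsPullback.of_horiz_isIso ⟨(Scheme.isoSpec_inv_naturality f).symm⟩
  have hdim : ringKrullDim (p.asIdeal.Fiber Γ(X, ⊤)) = e := by
    have hpb2 : IsPullback (pullback.fst f (Y.fromSpecResidueField y))
        (pullback.snd f (Y.fromSpecResidueField y) ≫ r) f
        (Spec.map (CommRingCat.ofHom (algebraMap Γ(Y, ⊤) p.asIdeal.ResidueField)) ≫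
          Y.isoSpec.inv) :=
      (IsPullback.of_hasPullback f (Y.fromSpecResidueField y)).of_iso (Iso.refl _) (Iso.refl _)
        (asIso r) (Iso.refl _) (by simp) (by simp) (by simp) (by simpa using hr.symm)
    have e1 := IsHomeomorph.topologicalKrullDim_eq _
      (hpb2.isoIsPullback _ _ hpb).hom.homeomorph.isHomeomorph
    rw [← PrimeSpectrum.topologicalKrullDim_eq_ringKrullDim, ← he]
    exact e1.symm
  obtain ⟨ψ, -, hψ⟩ := Flat2D.NoetherRel.exists_finite_mvPolynomial_of_dim
    p.asIdeal.ResidueField (p.asIdeal.Fiber Γ(X, ⊤)) e hdim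
  obtain ⟨φ, hφ⟩ := Flat2D.NoetherRel.exists_lift_finite_fiber p.asIdeal ψ hψ
  refine ⟨fun i ↦ φ (MvPolynomial.X i.down), isFinite_snd _ f _ _ _ _ hpb ?_ y r hr⟩
  let χ : MvPolynomial (ULift.{u} (Fin e)) p.asIdeal.ResidueField →+* p.asIdeal.Fiber Γ(X, ⊤) :=
    (Flat2D.NoetherRel.fiberMap p.asIdeal φ).toRingHom.comp
      (MvPolynomial.renameEquiv p.asIdeal.ResidueField Equiv.ulift).toRingEquiv.toRingHom
  have hχ : χ.Finite := RingHom.Finite.comp hφ (RingHom.Finite.of_surjective _
    (MvPolynomial.renameEquiv p.asIdeal.ResidueField Equiv.ulift).toRingEquiv.surjective)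
  have key : homOfVector (n := ULift.{u} (Fin e)) (Spec.map (CommRingCat.ofHom
      (Algebra.TensorProduct.includeLeftRingHom (R := Γ(Y, ⊤))
        (A := p.asIdeal.ResidueField) (B := Γ(X, ⊤)))))
      ((Spec.map (CommRingCat.ofHom (Algebra.TensorProduct.includeRight (R := Γ(Y, ⊤))
        (A := p.asIdeal.ResidueField) (B := Γ(X, ⊤))).toRingHom) ≫ X.isoSpec.inv).appTop ∘
          fun i ↦ φ (MvPolynomial.X i.down)) =
      Spec.map (CommRingCat.ofHom χ) ≫ (SpecIso _ (.of p.asIdeal.ResidueField)).inv := by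
    refine AffineSpace.hom_ext ?_ fun i ↦ ?_
    · rw [homOfVector_over, Category.assoc, SpecIso_inv_over, ← Spec.map_comp,
        ← CommRingCat.ofHom_comp]
      congr 2
      ext x
      simp [χ, Flat2D.NoetherRel.fiberMap]
    · have e1 : X.isoSpec.inv.appTop = (Scheme.ΓSpecIso Γ(X, ⊤)).inv := by
        rw [← Iso.comp_hom_eq_id, ← Scheme.toSpecΓ_appTop, ← Scheme.isoSpec_hom,
          ← Scheme.Hom.comp_appTop, Iso.hom_inv_id]
        rfl
      have e2 : (SpecIso (ULift.{u} (Fin e)) (.of p.asIdeal.ResidueField)).inv.appTop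
          (coord _ i) = (Scheme.ΓSpecIso (.of _)).inv (.X i) := SpecIso_inv_appTop_coord _ i
      rw [homOfVector_appTop_coord, Scheme.Hom.comp_appTop, Scheme.Hom.comp_appTop,
        CommRingCat.comp_apply, e2]
      change ((X.isoSpec.inv.appTop ≫ _).hom (φ (MvPolynomial.X i.down))) = _
      have e3 := congr($(Scheme.ΓSpecIso_inv_naturality (CommRingCat.ofHom χ)) (MvPolynomial.X i))
      rw [CommRingCat.comp_apply, CommRingCat.comp_apply] at e3
      refine Eq.trans ?_ e3
      rw [e1, ← Scheme.ΓSpecIso_inv_naturality]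
      change (Scheme.ΓSpecIso (.of _)).inv _ = (Scheme.ΓSpecIso (.of _)).inv _
      congr 1
      simp [χ, Flat2D.NoetherRel.fiberMap]
      rfl
  rw [key]
  have : IsFinite (Spec.map (CommRingCat.ofHom χ)) := by
    rw [IsFinite.SpecMap_iff]
    exact hχ
  infer_instance

end Groth.Agent.Ega4fib.H115.NoetherFibre
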